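import Mathlib
import Cfsg.Agent.Lib.KnownSimple.Schur

/-!
# Local tools for stem extensions

* transfer to a subgroup of index prime to the order of a central element of the commutator subgroup;
* central extensions of generalised quaternion groups have `Q' ∩ A = 1`;
* bi-additive forms on a finite field invariant under the squares vanish unless `q ∈ {4, 9}`.
-/

set_option autoImplicit false

namespace Cfsg.Agent.Lib.SchurLocal

open scoped commutatorElement

section transfer

variable {Γ : Type*} [Group Γ] [Finite Γ]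

/-- Transfer to a subgroup of index prime to the order of `a`. -/
theorem mem_commutator_of_coprime (Q : Subgroup Γ) {a : Γ} (hcop : Nat.Coprime Q.index (orderOf a))
    (hc : a ∈ Subgroup.center Γ) (hd : a ∈ commutator Γ) (haQ : a ∈ Q) : (⟨a, haQ⟩ : Q) ∈ commutator Q := by
  classical
  haveI : Q.FiniteIndex := Subgroup.finiteIndex_of_finite
  set φ : Q →* Abelianization Q := Abelianization.of with hφ
  have h1 : MonoidHom.transfer φ a = 1 :=
    (Abelianization.commutator_subset_ker (MonoidHom.transfer φ)) hd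
  have h3 : MonoidHom.transfer φ a = φ ⟨a, haQ⟩ ^ Q.index :=
    Cfsg.Agent.Lib.Transfer.transfer_eq_pow_of_central φ ⟨a, haQ⟩ hc
  rw [h3, ← map_pow] at h1
  have h4 : (⟨a, haQ⟩ : Q) ^ Q.index ∈ commutator Q := (QuotientGroup.eq_one_iff _).1 h1
  have h5 : Nat.Coprime Q.index (orderOf (⟨a, haQ⟩ : Q)) := by
    have : orderOf (⟨a, haQ⟩ : Q) = orderOf a := Subgroup.orderOf_mk a haQ
    rwa [this]
  obtain ⟨m, hm⟩ := exists_pow_eq_self_of_coprime h5
  rw [← hm]
  exact pow_mem h4 m

end transfer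

section pure

variable {G : Type*} [Group G]

/-- Central elements do not affect commutators. -/
theorem commutator_mul_central {g h c c' : G} (hc : c ∈ Subgroup.center G) (hc' : c' ∈ Subgroup.center G) :
    ⁅g * c, h * c'⁆ = ⁅g, h⁆ := by
  have e1 : ∀ x, x * c = c * x := Subgroup.mem_center_iff.1 hc
  have e2 : ∀ x, x * c' = c' * x := Subgroup.mem_center_iff.1 hc'
  simp only [commutatorElement_def]
  calc g * c * (h * c') * (g * c)⁻¹ * (h * c')⁻¹
      = g * (c * h) * c' * (c⁻¹ * g⁻¹) * (c'⁻¹ * h⁻¹) := by simp only [mul_inv_rev, mul_assoc]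
    _ = g * h * c * c' * (c⁻¹ * g⁻¹) * (c'⁻¹ * h⁻¹) := by rw [← e1 h]; simp only [mul_assoc]
    _ = g * h * c' * (c * (c⁻¹ * g⁻¹)) * (c'⁻¹ * h⁻¹) := by
        rw [mul_assoc (g * h) c c', e2 c]; simp only [mul_assoc]
    _ = g * h * (c' * g⁻¹) * (c'⁻¹ * h⁻¹) := by simp only [mul_inv_cancel_left, mul_assoc]
    _ = g * h * g⁻¹ * (c' * (c'⁻¹ * h⁻¹)) := by rw [← e2 g⁻¹]; simp only [mul_assoc]
    _ = g * h * g⁻¹ * h⁻¹ := by rw [mul_inv_cancel_left]

/-- A generating set with commutators in a normal subgroup: the commutator subgroup lies in it. -/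
theorem commutator_le_of_closure {X : Set G} (hX : Subgroup.closure X = ⊤) (H : Subgroup G) [H.Normal]
    (hcomm : ∀ x ∈ X, ∀ y ∈ X, ⁅x, y⁆ ∈ H) : commutator G ≤ H := by
  -- the quotient is commutative
  have hc : ∀ a b : G ⧸ H, a * b = b * a := by
    set S : Set (G ⧸ H) := (QuotientGroup.mk' H) '' X with hS
    have hSc : Subgroup.closure S = ⊤ := by
      rw [hS, ← MonoidHom.map_closure, hX]
      rw [← MonoidHom.range_eq_map]
      exact (MonoidHom.range_eq_top).2 (QuotientGroup.mk'_surjective H)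
    have hcomm' : ∀ a ∈ S, ∀ b ∈ S, a * b = b * a := by
      rintro _ ⟨x, hx, rfl⟩ _ ⟨y, hy, rfl⟩
      have h1 : QuotientGroup.mk' H ⁅x, y⁆ = 1 := (QuotientGroup.eq_one_iff _).2 (hcomm x hx y hy)
      rw [map_commutatorElement, commutatorElement_eq_one_iff_mul_comm] at h1
      exact h1
    have h1 : ∀ a ∈ S, ∀ b : G ⧸ H, a * b = b * a := by
      intro a ha b
      have hb : b ∈ Subgroup.closure S := by rw [hSc]; exact Subgroup.mem_top b
      induction hb using Subgroup.closure_induction with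
      | mem y hy => exact hcomm' a ha y hy
      | one => simp
      | mul x y _ _ ix iy => rw [← mul_assoc, ix, mul_assoc, iy, mul_assoc]
      | inv x _ ix => exact (Commute.inv_right ix).eq
    intro a b
    have ha : a ∈ Subgroup.closure S := by rw [hSc]; exact Subgroup.mem_top a
    induction ha using Subgroup.closure_induction with
    | mem y hy => exact h1 y hy b
    | one => simp
    | mul x y _ _ ix iy => rw [mul_assoc, iy, ← mul_assoc, ix, mul_assoc]
    | inv x _ ix => exact (Commute.inv_left ix).eq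
  rw [commutator_def, Subgroup.commutator_le]
  intro a _ b _
  have h2 : QuotientGroup.mk' H ⁅a, b⁆ = 1 := by
    rw [map_commutatorElement, commutatorElement_eq_one_iff_mul_comm]
    exact hc _ _
  exact (QuotientGroup.eq_one_iff _).1 h2

end pure

section quaternion

variable {Q : Type*} [Group Q]

/-- An element with `g e g⁻¹`, `g⁻¹ e g` in `⟨e⟩` normalises `⟨e⟩`. -/
theorem mem_normalizer_zpowers {e g : Q} {k l : ℤ} (h1 : g * e * g⁻¹ = e ^ k) (h2 : g⁻¹ * e * g = e ^ l) :
    g ∈ Subgroup.normalizer ((Subgroup.zpowers e : Subgroup Q) : Set Q) := by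
  rw [Subgroup.mem_normalizer_iff]
  intro h
  constructor
  · rintro ⟨j, rfl⟩
    refine ⟨k * j, ?_⟩
    show e ^ (k * j) = g * e ^ j * g⁻¹
    rw [zpow_mul, ← h1, conj_zpow]
  · rintro ⟨j, hj⟩
    refine ⟨l * j, ?_⟩
    have h3 : h = g⁻¹ * (g * h * g⁻¹) * g := by group
    show e ^ (l * j) = h
    rw [h3, ← show e ^ j = g * h * g⁻¹ from hj, zpow_mul, ← h2]
    have := conj_zpow (a := g⁻¹) (b := e) (i := j)
    rw [inv_inv] at this
    rw [this]

/-- A central extension of a generalised quaternion group has `Q' ∩ A = 1`. -/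
theorem eq_one_of_quaternion {n : ℕ} [NeZero n] (ρ : Q →* QuaternionGroup n) (hρ : Function.Surjective ρ)
    (hcen : ρ.ker ≤ Subgroup.center Q) {a : Q} (ha : ρ a = 1) (hd : a ∈ commutator Q) : a = 1 := by
  classical
  obtain ⟨X, hX⟩ := hρ (QuaternionGroup.a 1)
  obtain ⟨Y, hY⟩ := hρ (QuaternionGroup.xa 0)
  have hcc : ∀ {c : Q}, ρ c = 1 → ∀ g, g * c = c * g := fun {c} hc =>
    Subgroup.mem_center_iff.1 (hcen hc)
  -- relations in the quaternion group
  have rYX : (QuaternionGroup.xa (0 : ZMod (2 * n))) * QuaternionGroup.a 1 =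
      (QuaternionGroup.a 1)⁻¹ * QuaternionGroup.xa 0 := by
    rw [QuaternionGroup.xa_mul_a, eq_inv_mul_iff_mul_eq, QuaternionGroup.a_mul_xa]
    congr 1
    ring
  -- the central element `w`
  set w := X * (Y * X * Y⁻¹) with hw
  have hw1 : ρ w = 1 := by
    have e1 : ρ (Y * X * Y⁻¹) = (QuaternionGroup.a 1)⁻¹ := by
      rw [map_mul, map_mul, map_inv, hX, hY, rYX, mul_inv_cancel_right]
    rw [hw, map_mul, hX, e1, mul_inv_cancel]
  have hconj : Y * X * Y⁻¹ = X⁻¹ * w := by rw [hw, inv_mul_cancel_left]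
  -- the central element `v`
  set v := (X ^ n)⁻¹ * (Y * Y) with hv
  have hv1 : ρ v = 1 := by
    rw [hv, map_mul, map_inv, map_pow, map_mul, hX, hY, QuaternionGroup.a_one_pow, QuaternionGroup.xa_mul_xa,
      inv_mul_eq_one]
    congr 1
    ring
  have hYY : Y * Y = X ^ n * v := by rw [hv, mul_inv_cancel_left]
  -- `Y` commutes with `X ^ n`
  have h1 : Y * X ^ n * Y⁻¹ = X ^ n := by
    have e2 : Y * (X ^ n * v) * Y⁻¹ = X ^ n * v := by
      rw [← hYY]; group
    have e3 : Y * (X ^ n * v) * Y⁻¹ = Y * X ^ n * Y⁻¹ * v := by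
      rw [← mul_assoc Y, mul_assoc (Y * X ^ n), mul_assoc (Y * X ^ n), hcc hv1 Y⁻¹]
    rw [e3] at e2
    exact mul_right_cancel e2
  -- `X ^ (2 n) = w ^ n`
  have hwc : Commute X⁻¹ w := (hcc hw1 X⁻¹)
  have h2 : X ^ n = (X ^ n)⁻¹ * w ^ n := by
    have e4 : (Y * X * Y⁻¹) ^ n = Y * X ^ n * Y⁻¹ := conj_pow
    rw [hconj, hwc.mul_pow, h1, inv_pow] at e4
    exact e4.symm
  -- the element `e`
  have hwi : X⁻¹ * w = w * X⁻¹ := (hcc hw1 X⁻¹)
  have hwX : w⁻¹ * X = X * w⁻¹ := (Commute.inv_left (hcc hw1 X).symm).eq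
  set e := ⁅Y, X⁆ with he
  have he1 : e = X⁻¹ * w * X⁻¹ := by
    rw [he, commutatorElement_def, hconj]
  have hen : e ^ n = 1 := by
    have he2 : e = (X⁻¹ * X⁻¹) * w := by
      rw [he1, mul_assoc X⁻¹ w, ← hwi, mul_assoc]
    have hc1 : Commute (X⁻¹ * X⁻¹) w := (hcc hw1 _)
    rw [he2, hc1.mul_pow, ← pow_two, ← pow_mul, mul_comm 2 n, pow_mul, inv_pow]
    have : (X ^ n)⁻¹ ^ 2 * w ^ n = (X ^ n)⁻¹ * ((X ^ n)⁻¹ * w ^ n) := by rw [pow_two, mul_assoc]
    rw [this, ← h2, inv_mul_cancel]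
  -- normality of `⟨e⟩`
  have hXe : X * e * X⁻¹ = e ^ (1 : ℤ) := by
    rw [zpow_one, he1]
    calc X * (X⁻¹ * w * X⁻¹) * X⁻¹ = w * X⁻¹ * X⁻¹ := by group
      _ = X⁻¹ * w * X⁻¹ := by rw [hwi]
  have hX'e : X⁻¹ * e * X = e ^ (1 : ℤ) := by
    rw [zpow_one]
    have := hXe
    rw [zpow_one] at this
    calc X⁻¹ * e * X = X⁻¹ * (X * e * X⁻¹) * X := by rw [this]
      _ = e := by group
  have hYe : Y * e * Y⁻¹ = e ^ (-1 : ℤ) := by
    rw [zpow_neg_one]
    have hYw : Y * w * Y⁻¹ = w := by rw [hcc hw1 Y]; group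
    have hYXi : Y * X⁻¹ * Y⁻¹ = w⁻¹ * X := by
      calc Y * X⁻¹ * Y⁻¹ = (Y * X * Y⁻¹)⁻¹ := by group
        _ = w⁻¹ * X := by rw [hconj]; group
    calc Y * e * Y⁻¹ = Y * (X⁻¹ * w * X⁻¹) * Y⁻¹ := by rw [he1]
      _ = (Y * X⁻¹ * Y⁻¹) * (Y * w * Y⁻¹) * (Y * X⁻¹ * Y⁻¹) := by group
      _ = (w⁻¹ * X) * w * (w⁻¹ * X) := by rw [hYXi, hYw]
      _ = w⁻¹ * X * X := by group
      _ = (X * w⁻¹) * X := by rw [hwX]
      _ = e⁻¹ := by rw [he1]; group
  have hY'e : Y⁻¹ * e * Y = e ^ (-1 : ℤ) := by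
    rw [zpow_neg_one]
    have h3 := hYe
    rw [zpow_neg_one] at h3
    calc Y⁻¹ * e * Y = Y⁻¹ * (Y * e * Y⁻¹)⁻¹ * Y := by rw [h3, inv_inv]
      _ = e⁻¹ := by group
  -- generation
  set S : Set Q := {X, Y} ∪ ρ.ker with hS
  have hgen : Subgroup.closure S = ⊤ := by
    rw [eq_top_iff]
    rintro g -
    have mX : X ∈ Subgroup.closure S := Subgroup.subset_closure (Or.inl (by simp))
    have mY : Y ∈ Subgroup.closure S := Subgroup.subset_closure (Or.inl (by simp))
    have key : ∃ u ∈ Subgroup.closure S, ρ u = ρ g := by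
      generalize ρ g = t
      cases t with
      | a i =>
          refine ⟨X ^ (i.val), Subgroup.pow_mem _ mX _, ?_⟩
          rw [map_pow, hX, QuaternionGroup.a_one_pow]
          congr 1
          simp
      | xa i =>
          refine ⟨Y * X ^ (i.val), Subgroup.mul_mem _ mY (Subgroup.pow_mem _ mX _), ?_⟩
          rw [map_mul, map_pow, hX, hY, QuaternionGroup.a_one_pow, QuaternionGroup.xa_mul_a]
          congr 1
          simp
    obtain ⟨u, hu, hug⟩ := key
    have h5 : u⁻¹ * g ∈ ρ.ker := by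
      rw [MonoidHom.mem_ker, map_mul, map_inv, hug, inv_mul_cancel]
    have := Subgroup.mul_mem _ hu (Subgroup.subset_closure (Or.inr h5) : u⁻¹ * g ∈ Subgroup.closure S)
    rwa [mul_inv_cancel_left] at this
  -- normal
  have hnorm : (Subgroup.zpowers e).Normal := by
    rw [← Subgroup.normalizer_eq_top_iff, eq_top_iff, ← hgen, Subgroup.closure_le]
    rintro g (hg | hg)
    · simp only [Set.mem_insert_iff, Set.mem_singleton_iff] at hg
      rcases hg with rfl | rfl
      · exact mem_normalizer_zpowers hXe hX'e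
      · exact mem_normalizer_zpowers hYe hY'e
    · have hcg : ∀ h, h * g = g * h := hcc hg
      refine mem_normalizer_zpowers (k := 1) (l := 1) ?_ ?_
      · rw [zpow_one, ← hcg e, mul_inv_cancel_right]
      · have : ∀ h, h * g⁻¹ = g⁻¹ * h := fun h => (Commute.inv_right (hcc hg h)).eq
        rw [zpow_one, ← this e, inv_mul_cancel_right]
  -- commutators
  have hcomm : commutator Q ≤ Subgroup.zpowers e := by
    apply commutator_le_of_closure hgen
    have hone : ∀ p q : Q, p * q = q * p → ⁅p, q⁆ ∈ Subgroup.zpowers e := by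
      intro p q h
      rw [commutatorElement_eq_one_iff_commute.2 h]
      exact Subgroup.one_mem _
    rintro p hp q hq
    by_cases hpk : p ∈ (ρ.ker : Set Q)
    · exact hone _ _ (hcc hpk q).symm
    by_cases hqk : q ∈ (ρ.ker : Set Q)
    · exact hone _ _ (hcc hqk p)
    have hp' := hp.resolve_right hpk
    have hq' := hq.resolve_right hqk
    simp only [Set.mem_insert_iff, Set.mem_singleton_iff] at hp' hq'
    have m1 : ⁅Y, X⁆ ∈ Subgroup.zpowers e := Subgroup.mem_zpowers e
    have m2 : ⁅X, Y⁆ ∈ Subgroup.zpowers e := by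
      have := Subgroup.inv_mem _ m1
      rwa [commutatorElement_inv] at this
    rcases hp' with rfl | rfl <;> rcases hq' with rfl | rfl
    · exact hone _ _ rfl
    · exact m2
    · exact m1
    · exact hone _ _ rfl
  -- conclusion
  obtain ⟨j, hj⟩ := Subgroup.mem_zpowers_iff.1 (hcomm hd)
  have h6 : ρ e = (QuaternionGroup.a 1) ^ (-2 : ℤ) := by
    rw [he1, map_mul, map_mul, map_inv, hX, hw1, mul_one, ← zpow_neg_one, ← zpow_add]
    norm_num
  have h7 : (QuaternionGroup.a (1 : ZMod (2 * n))) ^ (-2 * j) = 1 := by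
    rw [zpow_mul, ← h6, ← map_zpow, hj, ha]
  have h8 := orderOf_dvd_iff_zpow_eq_one.2 h7
  rw [QuaternionGroup.orderOf_a_one] at h8
  have hn0 : (n : ℤ) ∣ j := by
    obtain ⟨c, hc⟩ := h8
    refine ⟨-c, ?_⟩
    push_cast at hc
    linarith
  obtain ⟨c, rfl⟩ := hn0
  rw [← hj, zpow_mul, zpow_natCast, hen, one_zpow]

end quaternion

section biadd

variable {F : Type*} [Field F] [Fintype F] {A : Type*} [CommGroup A]

theorem biadd_trivial (β : F → F → A)
    (h1 : ∀ x x' y, β (x + x') y = β x y * β x' y)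
    (h2 : ∀ x y y', β x (y + y') = β x y * β x y')
    (hinv : ∀ l : F, l ≠ 0 → ∀ x y, β (l ^ 2 * x) (l ^ 2 * y) = β x y)
    (halt : ∀ x, β x x = 1)
    (h4 : Fintype.card F ≠ 4) (h9 : Fintype.card F ≠ 9) : ∀ x y, β x y = 1 := by
  classical
  obtain ⟨p, hch⟩ := CharP.exists F
  obtain ⟨f, hp, hq⟩ := FiniteField.card F p
  haveI : Fact p.Prime := ⟨hp⟩
  -- zero
  have hz1 : ∀ y, β 0 y = 1 := by
    intro y
    have := h1 0 0 y
    rw [add_zero] at this
    exact (mul_eq_left.1 this.symm)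
  have hz2 : ∀ x, β x 0 = 1 := by
    intro y
    have := h2 y 0 0
    rw [add_zero] at this
    exact (mul_eq_left.1 this.symm)
  -- naturals
  have hn1 : ∀ (n : ℕ) x y, β ((n : F) * x) y = β x y ^ n := by
    intro n x y
    induction n with
    | zero => simp [hz1]
    | succ k ih =>
        rw [Nat.cast_succ, add_mul, one_mul, h1, ih, pow_succ]
  have hn2 : ∀ (n : ℕ) x y, β x ((n : F) * y) = β x y ^ n := by
    intro n x y
    induction n with
    | zero => simp [hz2]
    | succ k ih =>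
        rw [Nat.cast_succ, add_mul, one_mul, h2, ih, pow_succ]
  -- the algebra structure
  letI : Algebra (ZMod p) F := ZMod.algebra F p
  have hcast : ∀ c : ZMod p, algebraMap (ZMod p) F c = (c.val : F) := by
    intro c
    conv_lhs => rw [← ZMod.natCast_zmod_val c]
    exact map_natCast _ _
  have hcard : Fintype.card F = p ^ (f : ℕ) := hq
  by_cases hf : (f : ℕ) = 1
  · -- the prime field
    have hinj : Function.Injective (algebraMap (ZMod p) F) := (algebraMap (ZMod p) F).injective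
    have hbij : Function.Bijective (algebraMap (ZMod p) F) := by
      apply hinj.bijective_of_nat_card_le
      rw [Nat.card_eq_fintype_card, hcard, hf, pow_one, Nat.card_zmod]
    intro x y
    obtain ⟨c, rfl⟩ := hbij.2 x
    obtain ⟨d, rfl⟩ := hbij.2 y
    rw [hcast, hcast]
    have e1 := hn1 c.val 1 (d.val : F)
    have e2 := hn2 d.val 1 1
    rw [mul_one] at e1 e2
    rw [e1, e2, halt, one_pow, one_pow]
  have hf2 : 2 ≤ (f : ℕ) := by
    have := f.pos
    omega
  -- a generator
  obtain ⟨t, ht⟩ := IsCyclic.exists_ofOrder_eq_natCard (α := Fˣ)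
  have hcu : Nat.card Fˣ = Fintype.card F - 1 := by
    rw [Nat.card_eq_fintype_card, Fintype.card_units]
  set s : F := (t : F) ^ 2 with hs
  have hs0 : s ≠ 0 := pow_ne_zero _ t.ne_zero
  -- adjoint property for powers of `s`
  have hpow : ∀ (n : ℕ) x y, β (s ^ n * x) y = β x (s⁻¹ ^ n * y) := by
    intro n x y
    have hl : ((t : F) ^ n) ≠ 0 := pow_ne_zero _ t.ne_zero
    have := hinv _ hl x (s⁻¹ ^ n * y)
    have e1 : ((t : F) ^ n) ^ 2 = s ^ n := by rw [hs]; ring
    rw [e1, ← mul_assoc, ← mul_pow, mul_inv_cancel₀ hs0, one_pow, one_mul] at this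
    exact this
  -- adjoint property for polynomials
  have hpol : ∀ (g : Polynomial (ZMod p)) x y,
      β (Polynomial.aeval s g * x) y = β x (Polynomial.aeval s⁻¹ g * y) := by
    intro g x y
    induction g using Polynomial.induction_on' with
    | add g₁ g₂ i1 i2 =>
        rw [map_add, map_add, add_mul, add_mul, h1, h2, i1, i2]
    | monomial n c =>
        rw [Polynomial.aeval_monomial, Polynomial.aeval_monomial, hcast, mul_assoc, hn1, mul_assoc, hn2, hpow]
  -- the minimal polynomial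
  have hint : IsIntegral (ZMod p) s := Algebra.IsIntegral.isIntegral s
  have hM := minpoly.aeval (ZMod p) s
  by_cases hd : Polynomial.aeval s⁻¹ (minpoly (ZMod p) s) = 0
  · -- conjugate
    exfalso
    have hconj : IsConjRoot (ZMod p) s s⁻¹ := (isConjRoot_iff_aeval_eq_zero hint).2 hd
    obtain ⟨σ, hσ⟩ := isConjRoot_iff_exists_algEquiv.1 hconj.symm
    obtain ⟨n, hn⟩ := FiniteField.exists_forall_apply_eq_pow (ZMod p) p F σ
    rw [Nat.card_zmod] at hn
    have h5 : s ^ (p ^ n) = s⁻¹ := by rw [← hn]; exact hσ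
    -- reduce the exponent
    set i := n % (f : ℕ) with hi
    have hilt : i < f := Nat.mod_lt _ f.pos
    have hidiv : n = (f : ℕ) * (n / (f : ℕ)) + i := (Nat.div_add_mod n f).symm
    have h6 : s ^ (p ^ i) = s⁻¹ := by
      rw [← h5]
      have e1 : p ^ n = (Fintype.card F) ^ (n / (f : ℕ)) * p ^ i := by
        rw [hcard, ← pow_mul]
        conv_lhs => rw [hidiv, pow_add]
      rw [e1, pow_mul, FiniteField.pow_card_pow]
    have h7 : s ^ (p ^ i + 1) = 1 := by
      rw [pow_succ, h6, inv_mul_cancel₀ hs0]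
    have h8 : t ^ (2 * (p ^ i + 1)) = 1 := by
      apply Units.ext
      rw [Units.val_pow_eq_pow_val, pow_mul, ← hs, Units.val_one, h7]
    have h9' := orderOf_dvd_of_pow_eq_one h8
    rw [ht, hcu, hcard] at h9'
    -- arithmetic
    obtain ⟨g, hg⟩ : ∃ g, (f : ℕ) = g + 1 := ⟨f - 1, by omega⟩
    have hq' : p ^ (f : ℕ) = p * p ^ g := by rw [hg, pow_succ']
    have hle : p ^ i ≤ p ^ g := Nat.pow_le_pow_right hp.pos (by omega)
    have hpN : p ≤ p ^ g := by
      calc p = p ^ 1 := (pow_one p).symm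
        _ ≤ p ^ g := Nat.pow_le_pow_right hp.pos (by omega)
    have hp2 := hp.two_le
    rw [hcard, hq'] at h4 h9
    set N := p ^ g with hN
    rw [hq'] at h9'
    have hpNpos : 1 ≤ p * N := by nlinarith
    by_cases h2' : p = 2
    · subst h2'
      have hcop : Nat.Coprime (2 * N - 1) 2 := by
        rw [Nat.coprime_comm, Nat.prime_two.coprime_iff_not_dvd]
        omega
      have h10 := hcop.dvd_of_dvd_mul_left h9'
      have h11 := Nat.le_of_dvd (by positivity) h10
      omega
    · have h3' : 3 ≤ p := by omega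
      have h11 := Nat.le_of_dvd (by positivity) h9'
      have h12 : p * N ≤ 2 * N + 3 := by omega
      have h13 : p = 3 := by
        by_contra h14
        have : 4 ≤ p := by omega
        nlinarith
      subst h13
      omega
  · intro x y
    have h6 := hpol (minpoly (ZMod p) s) x ((Polynomial.aeval s⁻¹ (minpoly (ZMod p) s))⁻¹ * y)
    rw [hM, zero_mul, hz1, ← mul_assoc, mul_inv_cancel₀ hd, one_mul] at h6
    exact h6.symm

end biadd

end Cfsg.Agent.Lib.SchurLocal
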